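import Mathlib
import Cfsg.Agent.Lib.Star.Exc
import Cfsg.Agent.Lib.KKL.EV

/-! A 2-block with abelian defect group on which the inertial quotient acts freely: all heights
are zero if the defect group is elementary abelian, or the inertial index is at most three, or the
defect group has order 16. -/

set_option autoImplicit false
set_option linter.unusedSectionVars false

namespace CfsgLib.H16

attribute [local implicit_reducible] CfsgLib.Block.K

open Cfsg MonoidAlgebra CfsgLib.Char CfsgLib.Block CfsgLib.Blk CfsgLib.Star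
open CfsgLib.BrPair (Cz Nz MaxPair stN)
open CfsgLib.SL2 (lin lin_apply)

variable {G : Type*} [Group G] [Fintype G] {M : Ideal AlgInt} [hp : Fact (Nat.Prime 2)]
variable {hM : IsPModular 2 M} {B : Set (IrrCharacter G)} {P : Subgroup G} {e : (K hM)[G]}
  {ε : G → ℤ} [∀ u : G, Fintype (Cu u)]
variable {δ d : ℤ} {ζ : (P →* ℂˣ) → IrrCharacter G} {a : IrrCharacter G → ℤ}
  {X Y : Finset (IrrCharacter G)}

theorem fr_sign (S : IsSign hM B P e ε) (u : G) (z : ℂ) :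
    MemLocalIdeal M (ε u * z) ↔ MemLocalIdeal M z := by
  rcases S.sign u with h | h <;> simp [h, li_neg_iff]

theorem fr_odd (F : Frob hM B P e) : Odd ((Cz P).relIndex (stN ⊤ P e)) :=
  Nat.odd_iff.2 (Nat.two_dvd_ne_zero.1 (ab_not_dvd_relIndex F.mp F.ab))

theorem fr_X (E : IsExcB hM B P e ε δ d ζ a X Y) (F : Frob hM B P e) (S : IsSign hM B P e ε)
    {u : P} (hu : u ≠ 1) {χ : IrrCharacter G} (hχ : χ ∈ X) :
    blockHeight 2 B (χ : G → ℂ) = 0 ↔ ¬ (2 : ℤ) ∣ a χ := by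
  rw [← F.not_li_dd_iff u.2 (fun h => hu (Subtype.ext h)) ((E.mem_iff χ).2 (.inl hχ)),
    ← fr_sign S u, E.val' χ hχ u hu, li_intCast_iff hM]
  rfl

theorem fr_Y (E : IsExcB hM B P e ε δ d ζ a X Y) (F : Frob hM B P e) (S : IsSign hM B P e ε)
    {u : P} (hu : u ≠ 1) {χ : IrrCharacter G} (hχ : χ ∈ Y) :
    blockHeight 2 B (χ : G → ℂ) = 0 ↔ (2 : ℤ) ∣ d := by
  classical
  obtain ⟨l, hl, rfl⟩ := (E.mem_Y χ).1 hχ
  obtain ⟨k, hk⟩ := F.mp.pgroup u
  have h1 : MemLocalIdeal M (orbSum (stN ⊤ P e) P l u - ((Cz P).relIndex (stN ⊤ P e) : ℕ)) := by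
    rw [orbSum_eq_sum, Finset.sum_apply, ← F.fAct.card_orb hl, Finset.card_eq_sum_ones, Nat.cast_sum,
      ← Finset.sum_sub_distrib]
    refine li_sum hM fun m _ => ?_
    rw [Nat.cast_one]
    exact li_sub_one_of_pow hM (k := k) (by
      rw [lin_apply, ← Units.val_pow_eq_pow_val, ← map_pow, hk, map_one, Units.val_one])
  have h2 := li_mul_left hM (lr_intCast hM δ) h1
  rw [← F.not_li_dd_iff u.2 (fun h => hu (Subtype.ext h)) ((E.mem_iff _).2 (.inr hχ)),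
    ← fr_sign S u, E.val l hl u hu, li_iff_of_li_sub hM
      (w := ((d + δ * ((Cz P).relIndex (stN ⊤ P e) : ℕ) : ℤ) : ℂ)) (by
        convert h2 using 1; push_cast; ring), li_intCast_iff hM]
  obtain ⟨n, hn⟩ := fr_odd F
  rw [hn]
  push_cast
  rcases E.sign with rfl | rfl <;> omega

theorem fr_all (E : IsExcB hM B P e ε δ d ζ a X Y) (F : Frob hM B P e) (S : IsSign hM B P e ε)
    (hP : P ≠ ⊥) (hd : (2 : ℤ) ∣ d) (ha : ∀ χ ∈ X, ¬ (2 : ℤ) ∣ a χ) :
    ∀ χ ∈ B, blockHeight 2 B (χ : G → ℂ) = 0 := fun χ hχ => by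
  have := (Subgroup.nontrivial_iff_ne_bot P).2 hP
  obtain ⟨u, hu⟩ := exists_ne (1 : P)
  rcases (E.mem_iff χ).1 hχ with h | h
  · exact (fr_X E F S hu h).2 (ha χ h)
  · exact (fr_Y E F S hu h).2 hd

theorem fr_Y_odd (E : IsExcB hM B P e ε δ d ζ a X Y) (F : Frob hM B P e) (hP : P ≠ ⊥) :
    Odd Y.card := by
  have h1 := E.card_Y_mul F
  obtain ⟨k, hk⟩ := F.mp.pgroup.exists_card_eq
  have h2 := (Subgroup.one_lt_card_iff_ne_bot P).2 hP
  have h3 : 2 ∣ Nat.card P := by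
    rw [hk] at h2 ⊢
    exact dvd_pow_self 2 fun h => by rw [h] at h2; omega
  refine Nat.not_even_iff_odd.1 fun h => ?_
  have := h.two_dvd.mul_right ((Cz P).relIndex (stN ⊤ P e))
  omega

theorem fr_ev (E : IsExcB hM B P e ε δ d ζ a X Y) (F : Frob hM B P e) (S : IsSign hM B P e ε)
    (hP : P ≠ ⊥) (h2 : ∀ x ∈ P, x ^ 2 = 1) {ξ : IrrCharacter G} (hξ : ξ ∈ X) :
    (2 : ℤ) ∣ a ξ - (Y.card * d - δ) := by
  classical
  have hξY : ξ ∉ Y := Finset.disjoint_left.1 E.disj hξ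
  obtain ⟨c, hc⟩ : ∃ c : ℤ, c = Y.card * d - δ := ⟨_, rfl⟩
  obtain ⟨x, hx⟩ : ∃ x : IrrCharacter G → ℤ,
    x = fun χ => (if χ ∈ Y then a ξ else 0) + if χ = ξ then -c else 0 := ⟨_, rfl⟩
  have hs : ∀ H : IrrCharacter G → ℂ, ∑ χ, (x χ : ℂ) * H χ = a ξ * ∑ χ ∈ Y, H χ - c * H ξ := by
    intro H
    simp only [hx, Int.cast_add, add_mul, Finset.sum_add_distrib, Int.cast_ite, ite_mul, Int.cast_zero,
      zero_mul, Finset.sum_ite_mem, Finset.univ_inter, Finset.sum_ite_eq', Finset.mem_univ, if_true,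
      Finset.mul_sum, Int.cast_neg]
    ring
  have hl : ∀ χ, ∃ l, χ ∈ Y → l ≠ 1 ∧ ζ l = χ := fun χ => by
    by_cases h : χ ∈ Y
    · obtain ⟨l, h1⟩ := (E.mem_Y χ).1 h
      exact ⟨l, fun _ => h1⟩
    · exact ⟨1, fun h' => absurd h' h⟩
  choose cc hcc using hl
  have hcol : ∀ v ∈ P, v ≠ 1 →
      (a ξ : ℂ) * ∑ χ ∈ Y, dd hM P e v χ - c * dd hM P e v ξ = 0 := fun v hv hv1 => by
    have hu : (⟨v, hv⟩ : P) ≠ 1 := fun h => hv1 (congrArg Subtype.val h)
    have h3 : (ε v : ℂ) * ∑ χ ∈ Y, dd hM P e v χ = c := by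
      rw [Finset.mul_sum, Finset.sum_congr rfl (g := fun χ => d + δ * orbSum (stN ⊤ P e) P (cc χ) ⟨v, hv⟩)
        fun χ hχ => by rw [← E.val _ (hcc χ hχ).1 _ hu, (hcc χ hχ).2], Finset.sum_add_distrib,
        ← Finset.mul_sum, E.sum_orbSum F hcc hu, Finset.sum_const, nsmul_eq_mul, hc]
      push_cast; ring
    have h4 : (ε v : ℂ) * dd hM P e v ξ = a ξ := E.val' ξ hξ _ hu
    apply mul_left_cancel₀ (left_ne_zero_of_mul_eq_one (S.mul_self v))
    linear_combination (a ξ : ℂ) * h3 - c * h4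
  have h5 := KKL.ev hM F.blk ((BrPair.isDefectGroup_iff hM F.blk).2 F.mp.isDef) h2 hP x
    (fun χ hχ => by
      have h6 : χ ∉ Y := fun h => hχ ((E.mem_iff χ).2 (.inr h))
      have h7 : χ ≠ ξ := fun h => hχ ((E.mem_iff χ).2 (.inl (h ▸ hξ)))
      simp only [hx, if_neg h6, if_neg h7, add_zero])
    (fun g hg => by
      obtain ⟨ι, s, v, f, h6, h7⟩ := F.exists_expand hg
      rw [hs fun χ => (χ : G → ℂ) g, h7 ξ ((E.mem_iff ξ).2 (.inl hξ)),
        Finset.sum_congr rfl fun χ hχ => h7 χ ((E.mem_iff χ).2 (.inr hχ)), Finset.sum_comm,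
        Finset.mul_sum, Finset.mul_sum, ← Finset.sum_sub_distrib]
      refine Finset.sum_eq_zero fun i hi => ?_
      rw [← Finset.sum_mul]
      linear_combination f i * hcol _ (h6 i hi).1 (h6 i hi).2.1)
  have h6 : ∑ χ, x χ ^ 2 = Y.card * a ξ ^ 2 + c ^ 2 := by
    have h7 := hs fun χ => x χ
    have h8 : x ξ = -c := by simp only [hx, if_neg hξY, if_true, zero_add]
    rw [Finset.sum_congr rfl (s₁ := Y) (g := fun _ => (a ξ : ℂ)) fun χ hχ => by
      have : χ ≠ ξ := fun h => hξY (h ▸ hχ)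
      simp only [hx, if_pos hχ, if_neg this, add_zero], Finset.sum_const, nsmul_eq_mul, h8] at h7
    have h9 : ((∑ χ, x χ ^ 2 : ℤ) : ℂ) = ((Y.card * a ξ ^ 2 + c ^ 2 : ℤ) : ℂ) := by
      push_cast at h7 ⊢
      simp only [sq]
      linear_combination h7
    exact_mod_cast h9
  obtain ⟨m, hm⟩ := fr_Y_odd E F hP
  rw [h6, hm] at h5
  rw [← hc]
  have h7 : Even (a ξ ^ 2 + c ^ 2) := by
    obtain ⟨r, hr⟩ := h5
    push_cast at hr
    exact ⟨r - m * a ξ ^ 2, by linear_combination hr⟩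
  rw [Int.even_add, Int.even_pow' two_ne_zero, Int.even_pow' two_ne_zero, ← Int.even_sub] at h7
  exact h7.two_dvd

/-- free action on an elementary abelian defect group -/
theorem frob_el (F : Frob hM B P e) (hP : P ≠ ⊥) (h2 : ∀ x ∈ P, x ^ 2 = 1) :
    ∀ χ ∈ B, blockHeight 2 B (χ : G → ℂ) = 0 := by
  obtain ⟨ε, S⟩ := F.exists_sign
  obtain ⟨δ, d, ζ, a, X, Y, E⟩ := F.exists_isExcB S hP
  obtain ⟨m, hm⟩ := fr_Y_odd E F hP
  have h1 : ∀ ξ ∈ X, (2 : ℤ) ∣ a ξ - (d - δ) := fun ξ hξ => by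
    obtain ⟨r, hr⟩ := fr_ev E F S hP h2 hξ
    rw [hm] at hr
    push_cast at hr
    exact ⟨r + m * d, by linear_combination hr⟩
  have hd : (2 : ℤ) ∣ d := by
    have := (Subgroup.nontrivial_iff_ne_bot P).2 hP
    obtain ⟨u, hu⟩ := exists_ne (1 : P)
    obtain ⟨ψ, rfl⟩ := F.blk
    obtain ⟨χ, hχ, h0⟩ := exists_height_zero (p := 2) ⟨ψ, mem_blockOf_self hM ψ⟩
    rcases (E.mem_iff χ).1 hχ with h | h
    · have h3 := (fr_X E F S hu h).1 h0
      have h4 := h1 χ h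
      rcases E.sign with rfl | rfl <;> omega
    · exact (fr_Y E F S hu h).1 h0
  refine fr_all E F S hP hd fun χ hχ => ?_
  have h4 := h1 χ hχ
  rcases E.sign with rfl | rfl <;> omega

/-- free action with inertial index at most three -/
theorem frob_three (F : Frob hM B P e) (hP : P ≠ ⊥) (h3 : (Cz P).relIndex (stN ⊤ P e) ≤ 3) :
    ∀ χ ∈ B, blockHeight 2 B (χ : G → ℂ) = 0 := by
  obtain ⟨ε, S⟩ := F.exists_sign
  obtain ⟨δ, d, ζ, a, X, Y, E⟩ := F.exists_isExcB S hP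
  obtain ⟨k, hk⟩ := F.mp.pgroup.exists_card_eq
  have h4 : ∀ n, Odd n → 1 < n → Nat.card P ≠ n := fun n hn h1 h => by
    rw [hk] at h
    rw [← h] at hn h1
    exact (Nat.not_odd_iff_even.2 (Nat.even_pow.2 ⟨even_two, fun h => by rw [h] at h1; omega⟩)) hn
  have h5 := ((E.card_X_eq_or F hP S h3).resolve_right fun h =>
    h.elim (h4 7 (by decide) (by norm_num)) (h4 13 (by decide) (by norm_num)))
  obtain ⟨h6, h7⟩ := E.a_eq_of_card F hP S h5
  obtain ⟨m, hm⟩ := fr_Y_odd E F hP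
  refine fr_all E F S hP ?_ fun χ hχ => by rcases h6 χ hχ with h | h <;> omega
  rw [hm] at h7
  push_cast at h7
  have h8 : Even (d ^ 2) := ⟨d * δ - m * d ^ 2, by linear_combination h7⟩
  exact ((Int.even_pow' two_ne_zero).1 h8).two_dvd

theorem fr_le (F : Frob hM B P e) (Q : Subgroup P) {u : P} (hu : u ∈ Q) (hu1 : u ≠ 1)
    (hQ : ∀ v : P, Fus 2 P e v u → v ∈ Q) : (Cz P).relIndex (stN ⊤ P e) ≤ Nat.card Q := by
  rw [← ab_cl_of_free F.mp F.ab u.2 (F.free u u.2 fun h => hu1 (Subtype.ext h)), cl]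
  exact Nat.card_le_card_of_injective (fun v => (⟨v.1, hQ _ v.2⟩ : Q)) fun v w h =>
    Subtype.ext (Subtype.mk.inj h)

/-- free action on a defect group of order 16 -/
theorem frob (F : Frob hM B P e) (h16 : Nat.card P = 16) :
    ∀ χ ∈ B, blockHeight 2 B (χ : G → ℂ) = 0 := by
  have hP : P ≠ ⊥ := (Subgroup.one_lt_card_iff_ne_bot P).1 (by omega)
  by_cases h2 : ∀ x ∈ P, x ^ 2 = 1
  · exact frob_el F hP h2
  refine frob_three F hP ?_
  by_contra h3
  obtain ⟨n, hn⟩ := fr_odd F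
  have := F.fAct.comm
  push Not at h2
  obtain ⟨x, hx, hx2⟩ := h2
  let φ : P →* P := MonoidHom.mk' (fun y => y ^ 2) fun y z =>
    (show Commute y z from this.is_comm.comm y z).mul_pow 2
  have h4 := fr_le F φ.range (u := ⟨x, hx⟩ ^ 2) ⟨_, rfl⟩ (fun h => hx2 (congrArg Subtype.val h))
    fun v hv => by
      obtain ⟨-, t, ht, h⟩ := (ab_fus_iff F.mp F.ab).1 hv
      refine ⟨cjP F.fAct.le_Nz (⟨t, ht⟩⁻¹) ⟨x, hx⟩, Subtype.ext ?_⟩
      change (t⁻¹ * x * t⁻¹⁻¹) ^ 2 = v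
      rw [conj_pow, show x ^ 2 = t * v * t⁻¹ from h.symm]
      group
  obtain ⟨z, hz⟩ := exists_prime_orderOf_dvd_card' (G := P) 2 (by rw [h16]; norm_num)
  have hz2 : z ^ 2 = 1 := hz ▸ pow_orderOf_eq_one z
  have h5 := fr_le F φ.ker (u := z) hz2 (by rintro rfl; simp at hz) fun v hv => by
    obtain ⟨-, t, -, h⟩ := (ab_fus_iff F.mp F.ab).1 hv
    refine Subtype.ext ?_
    change (v : G) ^ 2 = 1
    have h6 : (t * v * t⁻¹) ^ 2 = 1 := by rw [h]; exact congrArg Subtype.val hz2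
    rwa [conj_pow, mul_inv_eq_one, mul_eq_left] at h6
  have h6 := φ.ker.card_mul_index
  rw [Subgroup.index_ker, h16] at h6
  have h7 : 5 * 5 ≤ Nat.card φ.ker * Nat.card φ.range := Nat.mul_le_mul (by omega) (by omega)
  omega

end CfsgLib.H16
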