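import Mathlib
import Cfsg.Agent.Lib.KB.Reg

/-!
# Abelian defect groups with a regular action on a four-group: heights are zero
-/

set_option autoImplicit false
set_option linter.unusedSectionVars false

namespace CfsgLib.H16

attribute [local implicit_reducible] CfsgLib.Block.K

open Cfsg MonoidAlgebra CfsgLib.Char CfsgLib.Block CfsgLib.Blk CfsgLib.Star CfsgLib.Tame Subgroup
open CfsgLib.KB
open CfsgLib.BrPair (cS Cz Nz cj emb res IsBlk SubLE sB IsPair IsDef MaxPair Tr stN stC IsNil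
  mem_Nz mem_Cz)
open scoped ComplexConjugate

variable {G : Type*} [Group G] [Fintype G] [∀ u : G, Fintype (Cu u)]
  {M : Ideal AlgInt} {hM : IsPModular 2 M} {B : Set (IrrCharacter G)} {P : Subgroup G}
  {e : (K hM)[G]}

/-- the integral column of an involution with trivial stabiliser, on the orbits of the linear
characters of `P / V` -/
theorem reg_col (h : MaxPair 2 ⊤ ⊤ (eB hM B) P e) (hB : IsPBlock M B) (hab : P ≤ Cz P)
    {V : Subgroup G} (hVP : V ≤ P) (hN : ∀ t ∈ stN ⊤ P e, TrivMod t P V) {v : G} (hv : v ∈ V)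
    (hv2 : orderOf v ∣ 2) (hf : stN ⊤ P e ⊓ Cu v ≤ Cz P) :
    ∃ (m : ℕ) (o : IrrCharacter G → Fin m) (a : Fin m → ℤ), (∀ i, a i ≠ 0) ∧
      ∑ i, a i ^ 2 = Nat.card V ∧ (∀ i, ∃ χ ∈ B, o χ = i) ∧
      ∀ χ ∈ B, (Odd (a (o χ)) ↔ blockHeight 2 B (χ : G → ℂ) = 0) := by
  classical
  have : Fact (Nat.Prime 2) := ⟨Nat.prime_two⟩
  obtain ⟨n, m, o, h1, h2, h3, -⟩ := exists_orbits h hB hab hVP fun u v huv => by
    obtain ⟨hu, t, ht, rfl⟩ := (ab_fus_iff h hab).1 huv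
    exact hN t ht u hu
  have hn : (n : ℂ) ≠ 0 := Nat.cast_ne_zero.2 fun h0 => by
    rw [h0, zero_mul] at h1
    exact Nat.card_pos.ne h1
  have hs : ∀ i, ∃ χ ∈ B, o χ = i := fun i => by
    by_contra! hi
    have := h2 fun j => if j = i then 1 else 0
    rw [Finset.sum_eq_zero fun χ hχ => if_neg (hi χ (mem_bf.1 hχ))] at this
    simp [hn.symm] at this
  have hs' := hs
  choose s hs hos using hs
  have hvP := hVP hv
  obtain ⟨ξ, hξ⟩ : ∃ ξ, Uni 2 (bu hM P e v) ξ :=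
    exists_uni_of_isNil_sub (isPBlock_bu h hvP) (ab_isNil_su h hab hvP hf)
  have hd : ∀ χ ∈ bf B, dd hM P e v χ = dd hM P e v (s (o χ)) := fun χ hχ =>
    (h3 χ (mem_bf.1 hχ) _ (hs _) (hos _).symm).1 v hv
  choose a ha using fun i => exists_int_of_mem_cycInt_two hv2
    (gd_mem_cycInt hξ (isGenChar_of_isIrr (s i).2))
  have ha' : ∀ i, dd hM P e v (s i) = a i := ha
  refine ⟨m, o, a, fun i h0 => ?_, ?_, hs', fun χ hχ => ?_⟩
  · refine sp_ne_zero_of_major hM (pElt_of_mem h hvP) (induced_bu h hB hvP)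
      (defect_bu_of_central h hB hvP (ab_le_Cu h hab hvP)) (hs i) ?_
    rw [sp_eq_gd hξ (irr_isClassFunction _)]
    exact smul_eq_zero_of_left (by rw [ha i, h0, Int.cast_zero]) _
  · have h5 : ∑ i, dd hM P e v (s i) * conj (dd hM P e v (s i)) = Nat.card V := by
      apply mul_left_cancel₀ hn
      rw [← h2 fun i => dd hM P e v (s i) * conj (dd hM P e v (s i)), ← Nat.cast_mul, h1,
        ← ab_pow_defect h hab hvP, Nat.cast_pow,
        ← sum_gd_mul_conj hM (pElt_of_mem h hvP) (induced_bu h hB hvP) hξ]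
      exact Finset.sum_congr rfl fun χ hχ => by rw [← hd χ hχ]; rfl
    simp only [ha', map_intCast, ← sq] at h5
    exact_mod_cast h5
  · rw [← not_li_gd_iff hM (pElt_of_mem h hvP) (induced_bu h hB hvP) hξ hχ,
      show gd v (bu hM P e v) χ = a (o χ) from (hd χ (mem_bf.2 hχ)).trans (ha' _),
      li_intCast_iff hM, ← Int.not_even_iff_odd, even_iff_two_dvd]
    rfl

theorem ht_reg (h : MaxPair 2 ⊤ ⊤ (eB hM B) P e) (hB : IsPBlock M B) (hab : P ≤ Cz P)
    {V : Subgroup G} (hV4 : Nat.card V = 4) (hV : Reg (stN ⊤ P e) P V) :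
    ∀ χ ∈ B, blockHeight 2 B (χ : G → ℂ) = 0 := by
  have : Fact (Nat.Prime 2) := ⟨Nat.prime_two⟩
  obtain ⟨v, hv⟩ := exists_prime_orderOf_dvd_card' (G := V) 2 (by rw [hV4]; norm_num)
  rw [← Subgroup.orderOf_coe] at hv
  have hv1 : (v : G) ≠ 1 := fun h0 => by simp [h0] at hv
  obtain ⟨m, o, a, h0, h4, -, h5⟩ :=
    reg_col h hB hab hV.le hV.comm v.2 hv.dvd (hV.free v v.2 hv1)
  obtain ⟨ψ, hψ, h6⟩ := exists_height_zero (p := 2) (IsPBlock_nonempty hM hB)
  obtain ⟨-, h7⟩ := four_signs h0 (by rw [h4, hV4]; rfl) ((h5 ψ hψ).2 h6)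
  intro χ hχ
  refine (h5 χ hχ).1 ?_
  have h8 : Odd (a (o χ) ^ 2) := by rw [h7]; exact odd_one
  exact (Int.odd_pow' two_ne_zero).1 h8

end CfsgLib.H16
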